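import Cfsg.Agent.H562.PQR.Iface
import Cfsg.Agent.S0205
import Cfsg.Agent.Classification.MinSimpleStrong

/-!
# S3988: the prime 2

`solvable_of_two` : a finite `2`-solvable group is solvable (Feit–Thompson).
`trip_two` : the prime 2, from the rows of the minimal simple groups.
-/

set_option autoImplicit false

namespace Cfsg.Agent.H296.PQ

open Cfsg.Agent.H562.PQR

universe u

/-- a normal series with solvable factors -/
theorem solvable_step {G : Type u} [Group G] {A B : Subgroup G} [hA : A.Normal] (hAs : Group.IsSolvable A)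
    (hq : Group.IsSolvable (B ⧸ A.subgroupOf B)) : Group.IsSolvable B := by
  have h1 : Group.IsSolvable (A.subgroupOf B) := by
    let f : A.subgroupOf B →* A :=
      { toFun := fun x => ⟨(x : B), x.2⟩
        map_one' := rfl
        map_mul' := fun _ _ => rfl }
    exact Group.isSolvable_of_isSolvable_injective (f := f) (fun x y h =>
      Subtype.ext (Subtype.ext (congrArg (fun z : A => (z : G)) h)))
  exact Group.isSolvable_of_ker_le_range (A.subgroupOf B).subtype (QuotientGroup.mk' (A.subgroupOf B))
    (by rw [QuotientGroup.ker_mk', Subgroup.range_subtype])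

/-- a finite `2`-solvable group is solvable -/
theorem solvable_of_two {G : Type u} [Group G] [Finite G] (h : Cfsg.IsPSolvable 2 G) : Group.IsSolvable G := by
  obtain ⟨n, H, h0, hlast, hmono, hnorm, hfac⟩ := h
  have key : ∀ i : Fin (n + 1), Group.IsSolvable (H i) := by
    intro i
    induction i using Fin.induction with
    | zero => rw [h0]; infer_instance
    | succ i ih =>
      have := hnorm i.castSucc
      refine solvable_step ih ?_
      rcases hfac i with ⟨m, hm⟩ | hm
      · have : Fact (Nat.Prime 2) := ⟨Nat.prime_two⟩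
        have hp : IsPGroup 2 (H i.succ ⧸ (H i.castSucc).subgroupOf (H i.succ)) := IsPGroup.of_card (n := m) (by
          rw [← hm]; rfl)
        have := hp.isNilpotent
        infer_instance
      · apply Cfsg.Agent.S0205.result
        rw [← Nat.coprime_two_right]
        exact hm
  have h1 := key (Fin.last n)
  rw [hlast] at h1
  exact Group.isSolvable_of_surjective (f := Subgroup.topEquiv.toMonoidHom) (MulEquiv.surjective _)

/-- a non-abelian simple group has even order -/
theorem two_dvd {S : Type u} [Group S] [Finite S] [IsSimpleGroup S] (hna : ∃ x y : S, x * y ≠ y * x) :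
    2 ∣ Nat.card S := by
  by_contra h
  have h1 : Odd (Nat.card S) := Nat.not_even_iff_odd.1 fun h2 => h h2.two_dvd
  have h2 : Group.IsSolvable S := Cfsg.Agent.S0205.result h1
  obtain ⟨x, y, hxy⟩ := hna
  exact hxy ((IsSimpleGroup.comm_iff_isSolvable).2 h2 x y)

/-- a non-abelian simple group all of whose proper subgroups are `2`-solvable is minimal simple -/
theorem minimal_of_notMin {S : Type u} [Group S] [Finite S] [IsSimpleGroup S] (hna : ∃ x y : S, x * y ≠ y * x)
    (h : ¬ NotMin 2 S) : Cfsg.IsMinimalSimple S := by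
  refine ⟨inferInstance, fun hc => ?_, fun H hH => ?_⟩
  · obtain ⟨x, y, hxy⟩ := hna
    exact hxy (hc.is_comm.comm x y)
  · by_contra hns
    exact h ⟨H, hH, fun h2 => hns (solvable_of_two h2)⟩

/-- **S3988, the prime 2** -/
theorem trip_two {S : Type u} [Group S] [Finite S] [IsSimpleGroup S] (hna : ∃ x y : S, x * y ≠ y * x)
    (h1 : ∀ (F : Type) [Field F] [Fintype F], 4 ≤ Fintype.card F →
      Row (Matrix.ProjectiveSpecialLinearGroup (Fin 2) F))
    (h2 : ∀ (T : Type) [Group T], Cfsg.Lie.IsoSuzuki T → Row T)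
    (h3 : ∀ (F : Type) [Field F] [Fintype F], Fintype.card F = 3 →
      Row (Matrix.ProjectiveSpecialLinearGroup (Fin 3) F)) : NotMin 2 S ∨ Trip 2 S := by
  by_cases hN : NotMin 2 S
  · exact Or.inl hN
  have hrow : Row S := by
    rcases Cfsg.Agent.Classification.MinSimpleStrong.concl (minimal_of_notMin hna hN) with
      ⟨p, hp, F, _, _, hF, ⟨e⟩⟩ | ⟨p, hp, hp2, F, _, _, hF, ⟨e⟩⟩ | ⟨p, hp, hp5, F, _, _, hF, ⟨e⟩⟩ |
      ⟨F, _, _, hF, ⟨e⟩⟩ | ⟨F, _, _, m, hm, -, hF, ⟨e⟩⟩
    · refine (h1 F ?_).congr e.symm
      rw [hF]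
      calc 4 = 2 ^ 2 := by norm_num
        _ ≤ 2 ^ p := Nat.pow_le_pow_right (by norm_num) hp.two_le
    · refine (h1 F ?_).congr e.symm
      rw [hF]
      calc 4 ≤ 3 ^ 2 := by norm_num
        _ ≤ 3 ^ p := Nat.pow_le_pow_right (by norm_num) hp.two_le
    · refine (h1 F ?_).congr e.symm
      rw [hF]
      omega
    · exact (h3 F hF).congr e.symm
    · exact (h2 _ ⟨F, inferInstance, inferInstance, m, hm, hF, ⟨MulEquiv.refl _⟩⟩).congr e.symm
  exact hrow 2 Nat.prime_two (two_dvd hna)

end Cfsg.Agent.H296.PQ
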